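import Cfsg.Agent.H30.Ore5
import Cfsg.Agent.H30.Ore6

set_option autoImplicit false

namespace Cfsg.Agent.H30.Ore
open Matrix Module Polynomial

variable {F : Type*} [Field F]

theorem comm_transport [Fintype F] (p : ℕ) [hp : Fact p.Prime] (h : Fintype.card F = p) {n : ℕ}
    (H : ∀ g : Matrix (Fin n) (Fin n) (ZMod p), g.det = 1 → Comm g)
    (g : Matrix (Fin n) (Fin n) F) (hd : g.det = 1) : Comm g := by
  let e := ZMod.ringEquivOfPrime F hp.out h
  have h1 : (g.map e.symm).det = 1 := by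
    have := RingHom.map_det (e.symm : F →+* ZMod p) g
    rw [hd, map_one] at this
    exact this.symm
  have := (H _ h1).map (e : ZMod p →+* F)
  rw [Matrix.map_map] at this
  convert this using 1
  ext i j; simp

theorem comm_of_scalar [Fintype F] {n : ℕ} {g : Matrix (Fin n) (Fin n) F} (hd : g.det = 1)
    (h : (∀ c : F, g ≠ c • 1) → Comm g) : Comm g := by
  by_cases hg : ∀ c : F, g ≠ c • 1
  · exact h hg
  push Not at hg
  obtain ⟨c, rfl⟩ := hg
  exact comm_scalar n c (by simpa using hd)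

theorem comm32 (g : Matrix (Fin 3) (Fin 3) (ZMod 2)) (hd : g.det = 1) : Comm g := by
  obtain ⟨D, h1, -, h2⟩ := sl32 g hd
  exact ⟨D, h1, h2⟩

theorem comm33 (g : Matrix (Fin 3) (Fin 3) (ZMod 3)) (hd : g.det = 1) : Comm g := by
  obtain ⟨D, h1, -, h2⟩ := sl33 g hd
  exact ⟨D, h1, h2⟩

theorem zmod2_ne (c : ZMod 2) (h0 : c ≠ 0) (h1 : c ≠ 1) : False := by
  revert c; decide

theorem comm42 (g : Matrix (Fin 4) (Fin 4) (ZMod 2)) (hd : g.det = 1) : Comm g := by
  obtain ⟨P, Q, x, y, R, h1, h2, h3, h4⟩ := stepk (k := 2) (m := 2) rfl le_rfl g hd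
    fun c h0 h1 => (zmod2_ne c h0 h1).elim
  rw [h3]
  exact (sl42 y x R h4).conj h1 h2

theorem comm52 (g : Matrix (Fin 5) (Fin 5) (ZMod 2)) (hd : g.det = 1) : Comm g := by
  obtain ⟨P, Q, x, y, R, h1, h2, h3, h4⟩ := stepk (k := 2) (m := 3) rfl (by norm_num) g hd
    fun c h0 h1 => (zmod2_ne c h0 h1).elim
  obtain ⟨D, h5, h6, h7⟩ := sl32 _ h4
  rw [h3]
  refine Comm.conj h1 h2 ⟨_, ?_, coreS x y R !![0, 1; 1, 1] h7 (p := (X - 1) ^ 3)
    (by simpa using h6) ?_⟩
  · rw [det_fromBlocks_zero₂₁, h5, det_fin_two]; decide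
  · simp only [map_pow, map_sub, aeval_X, map_one]
    refine IsUnit.pow _ ((isUnit_iff_isUnit_det _).2 (IsUnit.mk0 _ ?_))
    rw [det_fin_two]; decide

theorem comm43 (g : Matrix (Fin 4) (Fin 4) (ZMod 3)) (hd : g.det = 1) : Comm g := by
  refine comm_of_scalar hd fun hg => ?_
  obtain ⟨P, Q, x, y, R, h1, h2, h3, -⟩ := step1 (m := 3) rfl g hg
  rw [h3] at hd ⊢
  rw [det_conj_of_mul_eq_one h1 h2, det_schur] at hd
  obtain ⟨D, h5, h6, h7⟩ := sl33 _ hd
  refine Comm.conj h1 h2 ⟨_, by simp [det_fromBlocks_zero₂₁, h5], core1 x y R 1 h7.relG ?_⟩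
  rw [map_one, ← neg_sub, det_neg]
  simpa using h6

theorem pow_bound1 (s r : ℕ) : (r + 2 + s) * s + 1 ≤ (s + 1) ^ (r + 2) := by
  induction r with
  | zero => rw [zero_add]; nlinarith
  | succ r ih =>
    have : 1 ≤ (s + 1) ^ (r + 2) := Nat.one_le_pow _ _ (by omega)
    rw [show r + 1 + 2 = (r + 2) + 1 by ring, pow_succ]
    nlinarith

theorem pow_bound2 (s k : ℕ) : (k + 5) * (s + 1) + 1 ≤ (s + 2) ^ (k + 3) := by
  induction k with
  | zero => rw [zero_add, zero_add]; nlinarith [Nat.zero_le (s ^ 3), Nat.zero_le (s ^ 2)]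
  | succ k ih =>
    have : 1 ≤ (s + 2) ^ (k + 3) := Nat.one_le_pow _ _ (by omega)
    rw [show k + 1 + 3 = (k + 3) + 1 by ring, pow_succ]
    nlinarith

theorem comm_all [Fintype F] (n : ℕ) : (n = 2 → 4 ≤ Fintype.card F) →
    ∀ g : Matrix (Fin n) (Fin n) F, g.det = 1 → Comm g := by
  classical
  induction n using Nat.strong_induction_on with
  | _ n ih =>
  intro hex g hd
  have hq2 : 2 ≤ Fintype.card F := Fintype.one_lt_card
  refine comm_of_scalar hd fun hg => ?_
  by_cases hn1 : n ≤ 1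
  · refine (hg 1 ?_).elim
    interval_cases n
    · ext i; exact i.elim0
    · ext i j
      rw [det_unique] at hd
      rw [Subsingleton.elim i default, Subsingleton.elim j default, hd]; simp
  by_cases hn2 : n = 2
  · subst hn2
    exact comm_two (hex rfl) g hd hg
  let ρ : F → ℕ := fun c => finrank F (LinearMap.range (toLin' g - c • 1))
  by_cases h1 : ∃ c : F, c ≠ 0 ∧ c ≠ 1 ∧ ρ c ≤ 1
  · obtain ⟨c, h0, h1, h⟩ := h1
    obtain ⟨m, rfl⟩ : ∃ m, n = m + 3 := ⟨n - 3, by omega⟩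
    obtain ⟨a, b, rfl⟩ := exists_vecMulVec g c h
    exact comm_rank_one h0 h1 a b hd hg
  push Not at h1
  obtain ⟨s, hs⟩ : ∃ s, Fintype.card F = s + 2 := ⟨Fintype.card F - 2, by omega⟩
  by_cases hn3 : n = 3
  · subst hn3
    by_cases h4 : 4 ≤ Fintype.card F
    · exact comm_three h4 g hd hg
    by_cases h2 : Fintype.card F = 2
    · exact comm_transport 2 h2 comm32 g hd
    · exact comm_transport 3 (by omega) comm33 g hd
  by_cases hn4 : n = 4
  · subst hn4
    by_cases h4 : 4 ≤ Fintype.card F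
    · refine caseA (k := 2) (m := 2) rfl le_rfl two_pos g hd h1 ?_ (ih 2 (by norm_num) fun _ => h4)
      rw [hs] at h4 ⊢
      rw [Nat.lt_sub_iff_add_lt, show s + 2 - 1 = s + 1 by omega]
      nlinarith
    by_cases h2 : Fintype.card F = 2
    · exact comm_transport 2 h2 comm42 g hd
    · exact comm_transport 3 (by omega) comm43 g hd
  by_cases hn5 : n = 5
  · subst hn5
    by_cases h2 : Fintype.card F = 2
    · exact comm_transport 2 h2 comm52 g hd
    refine caseA (k := 2) (m := 3) rfl (by norm_num) two_pos g hd h1 ?_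
      (ih 3 (by norm_num) (by norm_num))
    rw [hs] at h2 ⊢
    have : 1 ≤ s := by omega
    rw [Nat.lt_sub_iff_add_lt, show s + 2 - 1 = s + 1 by omega]
    nlinarith
  by_cases hk : ∀ c : F, c ≠ 0 → c ≠ 1 → n / 2 ≤ ρ c
  · refine caseA (k := n / 2) (m := n - n / 2) (by omega) (by omega) (by omega) g hd hk ?_
      (ih _ (by omega) (by omega))
    obtain ⟨k, hk⟩ : ∃ k, n / 2 = k + 3 := ⟨n / 2 - 3, by omega⟩
    have := pow_bound2 s k
    have h2 : n - n / 2 ≤ k + 4 := by omega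
    rw [hs, hk, Nat.lt_sub_iff_add_lt, show s + 2 - 1 = s + 1 by omega]
    rw [hk] at h2
    nlinarith
  push Not at hk
  obtain ⟨c₀, h00, h01, h02⟩ := hk
  obtain ⟨c, hc, hmin⟩ := Finset.exists_min_image (Finset.univ.filter fun c : F => c ≠ 0 ∧ c ≠ 1)
    ρ ⟨c₀, by simp [h00, h01]⟩
  simp only [Finset.mem_filter, Finset.mem_univ, true_and] at hc hmin
  have h2 := hmin c₀ ⟨h00, h01⟩
  have h3 := h1 c hc.1 hc.2
  by_cases h4 : (n - ρ c) * (Fintype.card F - 1) < Fintype.card F ^ ρ c - 1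
  · exact caseA (k := ρ c) (m := n - ρ c) (by omega) (by omega) (by omega) g hd
      (fun d h0 h1 => hmin d ⟨h0, h1⟩) h4 (ih _ (by omega) (by omega))
  have h5 : 2 * ρ c + (s + 1) ≤ n := by
    obtain ⟨r, hr⟩ : ∃ r, ρ c = r + 2 := ⟨ρ c - 2, by omega⟩
    have := pow_bound1 (s + 1) r
    rw [hs, hr, show s + 2 - 1 = s + 1 by omega] at h4
    have h6 : (r + 2 + (s + 1)) * (s + 1) ≤ (n - (r + 2)) * (s + 1) := by
      rw [show s + 1 + 1 = s + 2 by ring] at this
      omega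
    have := Nat.le_of_mul_le_mul_right h6 (by omega)
    omega
  refine caseB (o := s + 1) (m := n - (s + 1)) (by omega) g hd c ?_ (by change 2 * ρ c ≤ _; omega)
    (ih _ (by omega) (by omega))
  have := FiniteField.pow_card_sub_one_eq_one c hc.1
  rwa [hs] at this

theorem Comm.commutator {n : Type*} [Fintype n] [DecidableEq n] (g : SpecialLinearGroup n F)
    (h : Comm g.1) : ∃ a b : SpecialLinearGroup n F, g = a * b * a⁻¹ * b⁻¹ := by
  obtain ⟨D, hD, A, B, y, z, hy, hz, h1, h2, h3⟩ := h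
  have hA : A.det = 1 := by simpa [hy, hD] using congrArg det h1
  have hB : B.det = 1 := by simpa [hz, hD] using congrArg det h2
  let A' : SpecialLinearGroup n F := ⟨A, hA⟩
  let B' : SpecialLinearGroup n F := ⟨B, hB⟩
  let D' : SpecialLinearGroup n F := ⟨D, hD⟩
  let y' : SpecialLinearGroup n F := ⟨y, hy⟩
  let z' : SpecialLinearGroup n F := ⟨z, hz⟩
  have e1 : A' * y' = y' * D' := Subtype.ext h1
  have e2 : B' * z' = z' * D' := Subtype.ext h2
  have e3 : g * B' = A' := Subtype.ext h3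
  refine ⟨A', z' * y'⁻¹, ?_⟩
  rw [eq_mul_inv_of_mul_eq e3, eq_mul_inv_of_mul_eq e1, eq_mul_inv_of_mul_eq e2]
  group

end Cfsg.Agent.H30.Ore
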