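import Cfsg.Agent.H30.Ore1

set_option autoImplicit false

namespace Cfsg.Agent.H30.Ore
open Matrix Module Polynomial

variable {F : Type*} [Field F] {l : Type*} [Fintype l] [DecidableEq l]

/-- Levi factor of the Siegel parabolic subgroup -/
def lev : GL l F →* symplecticGroup l F where
  toFun A := ⟨fromBlocks A.1 0 0 (A⁻¹).1ᵀ, by
    rw [SymplecticGroup.fromBlocks_mem_iff]
    simp only [Matrix.mul_zero, transpose_zero, Matrix.zero_mul, sub_zero, true_and,
      ← transpose_mul, Units.inv_mul, transpose_one]⟩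
  map_one' := Subtype.ext (by simp)
  map_mul' A B := Subtype.ext (by
    simp only [Submonoid.coe_mul, fromBlocks_multiply, _root_.mul_inv_rev, Units.val_mul,
      transpose_mul, Matrix.mul_zero, Matrix.zero_mul, add_zero, zero_add])

theorem lev_val (A : GL l F) : (lev A).1 = fromBlocks A.1 0 0 (A⁻¹).1ᵀ := rfl

def lo (S : Matrix l l F) (h : Sᵀ = S) : symplecticGroup l F :=
  ⟨fromBlocks 1 0 S 1, by rw [SymplecticGroup.fromBlocks_mem_iff]; simp [h]⟩

def up (S : Matrix l l F) (h : Sᵀ = S) : symplecticGroup l F :=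
  ⟨fromBlocks 1 S 0 1, by rw [SymplecticGroup.fromBlocks_mem_iff]; simp [h]⟩

theorem isConj_lo {D : GL l F} {p : F[X]} (hp : aeval (D⁻¹).1ᵀ p = 0) (hp1 : IsUnit (aeval D.1 p))
    (S : Matrix l l F) (h : Sᵀ = S) : IsConj (lev D) (lo S h * lev D) := by
  obtain ⟨Z, hZ⟩ := sylv2 hp hp1 (S * D.1)
  have e1 : (D⁻¹).1ᵀ * D.1ᵀ = 1 := by rw [← transpose_mul, Units.mul_inv, transpose_one]
  have hZ' : Zᵀ * D.1 - (D⁻¹).1ᵀ * Zᵀ = S * D.1 := by
    have := congrArg (fun M => (D⁻¹).1ᵀ * Mᵀ * D.1) hZ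
    simp only [transpose_sub, transpose_mul, transpose_transpose, h, Matrix.mul_sub, Matrix.sub_mul,
      ← Matrix.mul_assoc, e1, Matrix.one_mul] at this
    rw [← this, Matrix.mul_assoc _ (D⁻¹).1, Units.inv_mul, Matrix.mul_one]
  have hs : Zᵀ = Z := by
    have h1 : (D⁻¹).1ᵀ * (Zᵀ - Z) = (Zᵀ - Z) * D.1 := by
      rw [Matrix.mul_sub, Matrix.sub_mul, sub_eq_iff_eq_add.1 hZ, sub_eq_iff_eq_add.1 hZ']; abel
    have h2 := aeval_intertwine h1 p
    rw [hp, Matrix.zero_mul] at h2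
    exact sub_eq_zero.1 (hp1.mul_left_eq_zero.1 h2.symm)
  rw [isConj_iff]
  refine ⟨lo Z hs, ?_⟩
  rw [mul_inv_eq_iff_eq_mul]
  apply Subtype.ext
  simp only [Submonoid.coe_mul, lo, lev_val, fromBlocks_multiply, Matrix.mul_zero, Matrix.zero_mul,
    add_zero, zero_add, Matrix.one_mul, Matrix.mul_one, ← hZ, sub_add_cancel]

theorem isConj_up {D : GL l F} {p : F[X]} (hp : aeval (D⁻¹).1ᵀ p = 0) (hp1 : IsUnit (aeval D.1 p))
    (S : Matrix l l F) (h : Sᵀ = S) : IsConj (lev D) (up S h * lev D) := by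
  obtain ⟨Z, hZ⟩ := sylv1 hp hp1 (-(S * (D⁻¹).1ᵀ))
  have e1 : D.1ᵀ * (D⁻¹).1ᵀ = 1 := by rw [← transpose_mul, Units.inv_mul, transpose_one]
  have hZ' : D.1 * Zᵀ - Zᵀ * (D⁻¹).1ᵀ = -(S * (D⁻¹).1ᵀ) := by
    have := congrArg (fun M => D.1 * Mᵀ * (D⁻¹).1ᵀ) hZ
    simp only [transpose_sub, transpose_mul, transpose_transpose, h, Matrix.mul_sub, Matrix.sub_mul,
      ← Matrix.mul_assoc, Units.mul_inv, Matrix.one_mul, transpose_neg, Matrix.mul_neg,
      Matrix.neg_mul] at this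
    rw [← this, Matrix.mul_assoc _ D.1ᵀ, e1, Matrix.mul_one]
  have hs : Zᵀ = Z := by
    have h1 : D.1 * (Zᵀ - Z) = (Zᵀ - Z) * (D⁻¹).1ᵀ := by
      rw [Matrix.mul_sub, Matrix.sub_mul, sub_eq_iff_eq_add.1 hZ, sub_eq_iff_eq_add.1 hZ']; abel
    have h2 := aeval_intertwine h1 p
    rw [hp, Matrix.mul_zero] at h2
    exact sub_eq_zero.1 (hp1.mul_right_eq_zero.1 h2)
  rw [isConj_iff]
  refine ⟨up Z hs, ?_⟩
  rw [mul_inv_eq_iff_eq_mul]
  apply Subtype.ext
  simp only [Submonoid.coe_mul, up, lev_val, fromBlocks_multiply, Matrix.mul_zero, Matrix.zero_mul,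
    add_zero, zero_add, Matrix.one_mul, Matrix.mul_one]
  congr 1
  rw [sub_eq_iff_eq_add.1 hZ]; abel

theorem lo_mul_lev (S : Matrix l l F) (h : Sᵀ = S) (y : GL l F) :
    lo S h * lev y = lev y * lo (y.1ᵀ * S * y.1) (by
      simp [transpose_mul, h, Matrix.mul_assoc]) := by
  have e1 : (y⁻¹).1ᵀ * y.1ᵀ = 1 := by rw [← transpose_mul, Units.mul_inv, transpose_one]
  apply Subtype.ext
  simp only [Submonoid.coe_mul, lo, lev_val, fromBlocks_multiply, Matrix.mul_zero, Matrix.zero_mul,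
    add_zero, zero_add, Matrix.one_mul, Matrix.mul_one, ← Matrix.mul_assoc, e1]

theorem up_mul_lev (S : Matrix l l F) (h : Sᵀ = S) (y : GL l F) :
    up S h * lev y = lev y * up ((y⁻¹).1 * S * (y⁻¹).1ᵀ) (by
      simp only [transpose_mul, h, Matrix.mul_assoc, transpose_transpose]) := by
  apply Subtype.ext
  simp only [Submonoid.coe_mul, up, lev_val, fromBlocks_multiply, Matrix.mul_zero, Matrix.zero_mul,
    add_zero, zero_add, Matrix.one_mul, Matrix.mul_one, ← Matrix.mul_assoc, Units.mul_inv]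

theorem up_neg (S : Matrix l l F) (h : Sᵀ = S) :
    (up S h)⁻¹ = up (-S) (by rw [transpose_neg, h]) := by
  rw [inv_eq_iff_mul_eq_one]
  apply Subtype.ext
  simp [up, fromBlocks_multiply]

theorem gauss_sp (g : symplecticGroup l F) (h : GL l F) (hh : g.1.toBlocks₁₁ = h.1) :
    ∃ (S T : Matrix l l F) (hS : Sᵀ = S) (hT : Tᵀ = T), g = lo S hS * lev h * up T hT := by
  obtain ⟨g, hg⟩ := g
  have hg' := SymplecticGroup.transpose_mem hg
  rw [← fromBlocks_toBlocks g] at hg hg'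
  dsimp only at hh
  rw [fromBlocks_transpose, SymplecticGroup.fromBlocks_mem_iff, hh] at hg'
  have hg2 := hg
  rw [SymplecticGroup.fromBlocks_mem_iff, hh] at hg2
  simp only [transpose_transpose] at hg'
  have e1 : (h⁻¹).1ᵀ * h.1ᵀ = 1 := by rw [← transpose_mul, Units.mul_inv, transpose_one]
  have e2 : h.1ᵀ * (h⁻¹).1ᵀ = 1 := by rw [← transpose_mul, Units.inv_mul, transpose_one]
  have hS : (g.toBlocks₂₁ * (h⁻¹).1)ᵀ = g.toBlocks₂₁ * (h⁻¹).1 := by
    have := congrArg (fun M => (h⁻¹).1ᵀ * M * (h⁻¹).1) hg2.1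
    simp only [← Matrix.mul_assoc, e1, Matrix.one_mul] at this
    rw [transpose_mul, this, Matrix.mul_assoc _ h.1, Units.mul_inv, Matrix.mul_one]
  refine ⟨g.toBlocks₂₁ * (h⁻¹).1, (h⁻¹).1 * g.toBlocks₁₂, hS, ?_, Subtype.ext ?_⟩
  · have := congrArg (fun M => (h⁻¹).1 * M * (h⁻¹).1ᵀ) hg'.1
    simp only [← Matrix.mul_assoc, Units.inv_mul, Matrix.one_mul] at this
    rw [transpose_mul, this, Matrix.mul_assoc _ h.1ᵀ, e2, Matrix.mul_one]
  · simp only [Submonoid.coe_mul, up, lo, lev_val, fromBlocks_multiply, Matrix.mul_zero,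
      Matrix.zero_mul, add_zero, zero_add, Matrix.one_mul, Matrix.mul_one]
    conv_lhs => rw [← fromBlocks_toBlocks g, hh]
    congr 1
    · rw [← Matrix.mul_assoc, Units.mul_inv, Matrix.one_mul]
    · rw [Matrix.mul_assoc, Units.inv_mul, Matrix.mul_one]
    · have := congrArg (fun M => (h⁻¹).1ᵀ * M) hg2.2.2
      simp only [Matrix.mul_sub, ← Matrix.mul_assoc, e1, Matrix.one_mul, Matrix.mul_one,
        ← transpose_mul, hS] at this
      rw [Matrix.mul_assoc _ (h⁻¹).1, Units.inv_mul, Matrix.mul_one, ← Matrix.mul_assoc, ← this]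
      abel

theorem isConj_lev_inv {D : GL l F} (hD : D.1ᵀ = D.1) : IsConj (lev D) (lev D)⁻¹ := by
  rw [isConj_iff, ← map_inv]
  refine ⟨SymplecticGroup.symJ l F, ?_⟩
  rw [mul_inv_eq_iff_eq_mul]
  have : (D⁻¹).1ᵀ = (D⁻¹).1 := by
    rw [Matrix.coe_units_inv, transpose_nonsing_inv, hD]
  apply Subtype.ext
  simp only [Submonoid.coe_mul, SymplecticGroup.coe_J, J, lev_val, fromBlocks_multiply, inv_inv,
    this, hD]
  simp

/-- Gauss lemma for the Siegel parabolic subgroup -/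
theorem core_sp {D : GL l F} (hD : D.1ᵀ = D.1) {p : F[X]} (hp : aeval (D⁻¹).1ᵀ p = 0)
    (hp1 : IsUnit (aeval D.1 p)) (g : symplecticGroup l F) (h : RelG g.1.toBlocks₁₁ D.1) :
    ∃ u v, g = (u * lev D * u⁻¹) * (v * lev D * v⁻¹) := by
  obtain ⟨A, B, y, z, hy, hz, h1, h2, h3⟩ := h
  have hDd : D.1.det ≠ 0 := ((isUnit_iff_isUnit_det _).1 D.isUnit).ne_zero
  let y' := GeneralLinearGroup.mkOfDetNeZero y hy
  let z' := GeneralLinearGroup.mkOfDetNeZero z hz
  have hA : (y' * D * y'⁻¹).1 = A := by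
    rw [Units.val_mul, Units.val_mul, Units.mul_inv_eq_iff_eq_mul]; exact h1.symm
  have hB : (z' * D * z'⁻¹).1 = B := by
    rw [Units.val_mul, Units.val_mul, Units.mul_inv_eq_iff_eq_mul]; exact h2.symm
  obtain ⟨S, T, hS, hT, hg⟩ := gauss_sp g (y' * D * y'⁻¹ * (z' * D * z'⁻¹)⁻¹) (by
    rw [Units.val_mul, Units.eq_mul_inv_iff_mul_eq, hA, hB, h3])
  have c1 : IsConj (lev D) (lo S hS * lev (y' * D * y'⁻¹)) := by
    rw [map_mul, map_mul, ← mul_assoc, ← mul_assoc, lo_mul_lev, map_inv, mul_assoc (lev y')]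
    exact (isConj_lo hp hp1 _ _).trans (isConj_iff.2 ⟨_, rfl⟩)
  have c2 : IsConj (lev D) ((up T hT)⁻¹ * lev (z' * D * z'⁻¹)) := by
    rw [up_neg, map_mul, map_mul, ← mul_assoc, ← mul_assoc, up_mul_lev, map_inv, mul_assoc (lev z')]
    exact (isConj_up hp hp1 _ _).trans (isConj_iff.2 ⟨_, rfl⟩)
  obtain ⟨u, hu⟩ := isConj_iff.1 c1
  obtain ⟨v, hv⟩ := isConj_iff.1 c2
  obtain ⟨w, hw⟩ := isConj_iff.1 (isConj_lev_inv hD)
  refine ⟨u, v * w, ?_⟩
  have : v * w * lev D * (v * w)⁻¹ = (v * lev D * v⁻¹)⁻¹ := by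
    calc _ = v * (w * lev D * w⁻¹) * v⁻¹ := by group
      _ = _ := by rw [hw]; group
  rw [this, hu, hv, hg, map_mul (lev (l := l)) (y' * D * y'⁻¹), map_inv (lev (l := l))]
  group

/-- the symplectic form -/
def Bf (x y : l ⊕ l → F) : F := x ⬝ᵥ (J l F *ᵥ y)

theorem Bf_eq (x y : l ⊕ l → F) :
    Bf x y = ∑ i, (x (Sum.inr i) * y (Sum.inl i) - x (Sum.inl i) * y (Sum.inr i)) := by
  simp [Bf, J, dotProduct, fromBlocks_mulVec, neg_mulVec, Finset.sum_sub_distrib]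
  ring

theorem Bf_self (x : l ⊕ l → F) : Bf x x = 0 := by
  rw [Bf_eq]; exact Finset.sum_eq_zero fun i _ => by ring

theorem Bf_swap (x y : l ⊕ l → F) : Bf x y = -Bf y x := by
  rw [Bf_eq, Bf_eq, ← Finset.sum_neg_distrib]; exact Finset.sum_congr rfl fun i _ => by ring

@[simp] theorem Bf_add_left (x y z : l ⊕ l → F) : Bf (x + y) z = Bf x z + Bf y z := by
  simp [Bf]
@[simp] theorem Bf_add_right (x y z : l ⊕ l → F) : Bf x (y + z) = Bf x y + Bf x z := by
  simp [Bf, mulVec_add]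
@[simp] theorem Bf_sub_left (x y z : l ⊕ l → F) : Bf (x - y) z = Bf x z - Bf y z := by
  simp [Bf]
@[simp] theorem Bf_sub_right (x y z : l ⊕ l → F) : Bf x (y - z) = Bf x y - Bf x z := by
  simp [Bf, mulVec_sub]
@[simp] theorem Bf_smul_left (c : F) (x z : l ⊕ l → F) : Bf (c • x) z = c * Bf x z := by
  simp [Bf]
@[simp] theorem Bf_smul_right (c : F) (x z : l ⊕ l → F) : Bf x (c • z) = c * Bf x z := by
  simp [Bf, mulVec_smul]
@[simp] theorem Bf_zero_right (x : l ⊕ l → F) : Bf x 0 = 0 := by simp [Bf]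
@[simp] theorem Bf_zero_left (x : l ⊕ l → F) : Bf 0 x = 0 := by simp [Bf]

theorem Bf_isom (g : symplecticGroup l F) (x y : l ⊕ l → F) : Bf (g.1 *ᵥ x) (g.1 *ᵥ y) = Bf x y := by
  have := SymplecticGroup.mem_iff'.1 g.2
  rw [Bf, Bf, mulVec_mulVec, ← vecMul_transpose, ← dotProduct_mulVec, mulVec_mulVec,
    ← Matrix.mul_assoc, this]

theorem Bf_solve {r : Type*} [Fintype r] {a : r → (l ⊕ l → F)} (ha : LinearIndependent F a)
    (c : r → F) : ∃ v, ∀ i, Bf v (a i) = c i := by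
  classical
  obtain ⟨ψ, hψ⟩ := LinearMap.exists_leftInverse_of_injective (Fintype.linearCombination F a)
    (LinearMap.ker_eq_bot.2 ha.fintypeLinearCombination_injective)
  let φ : (l ⊕ l → F) →ₗ[F] F := (Fintype.linearCombination F c).comp ψ
  have h1 : ∀ i, φ (a i) = c i := fun i => by
    have := LinearMap.congr_fun hψ (Pi.single i 1)
    simp only [LinearMap.comp_apply, Fintype.linearCombination_apply_single, one_smul,
      LinearMap.id_apply] at this
    simp [φ, this]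
  refine ⟨-((fun j => φ (Pi.single j 1)) ᵥ* J l F), fun i => ?_⟩
  rw [Bf, neg_dotProduct, dotProduct_mulVec, vecMul_vecMul, J_squared, vecMul_neg, vecMul_one,
    neg_dotProduct, neg_neg, ← h1, LinearMap.pi_apply_eq_sum_univ φ (a i), dotProduct]
  refine Finset.sum_congr rfl fun j _ => ?_
  rw [smul_eq_mul, mul_comm]
  congr 2
  ext k; simp [Pi.single_apply, eq_comm]

/-- the matrix of a symplectic frame -/
theorem frame (e f : l → (l ⊕ l → F)) (he : ∀ i j, Bf (e i) (e j) = 0)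
    (hf : ∀ i j, Bf (f i) (f j) = 0) (hef : ∀ i j, Bf (f i) (e j) = if i = j then 1 else 0) :
    ∃ P : symplecticGroup l F, (∀ g : symplecticGroup l F, ∀ i j,
      (P⁻¹ * g * P).1.toBlocks₁₁ i j = Bf (f i) (g.1 *ᵥ e j)) ∧
      ∀ z, (∀ i, Bf (e i) z = 0) → (∀ i, Bf (f i) z = 0) → z = 0 := by
  let P : Matrix (l ⊕ l) (l ⊕ l) F := Matrix.of fun a b => Sum.elim e f b a
  have key : ∀ (M : Matrix (l ⊕ l) (l ⊕ l) F) a b,
      (Pᵀ * J l F * M * P) a b = Bf (Sum.elim e f a) (M *ᵥ Sum.elim e f b) := by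
    intro M a b
    rw [Bf, mulVec_mulVec, Matrix.mul_assoc Pᵀ, Matrix.mul_assoc Pᵀ]
    simp [Matrix.mul_apply, dotProduct, mulVec, P]
  have hP : P ∈ symplecticGroup l F := by
    rw [SymplecticGroup.mem_iff']
    ext a b
    have := key 1 a b
    rw [Matrix.mul_one, one_mulVec] at this
    rw [this]
    rcases a with a | a <;> rcases b with b | b
    · simp [he, J]
    · rw [Bf_swap]; simp [hef, J, one_apply, eq_comm]
    · simp [hef, J, one_apply]
    · simp [hf, J]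
  refine ⟨⟨P, hP⟩, fun g i j => ?_, fun z h1 h2 => ?_⟩
  · have := key g.1 (Sum.inr i) (Sum.inl j)
    simp only [Sum.elim_inr, Sum.elim_inl] at this
    rw [← this]
    simp only [Submonoid.coe_mul, SymplecticGroup.coe_inv, toBlocks₁₁, of_apply, Matrix.mul_assoc]
    generalize Pᵀ * (J l F * (g.1 * P)) = M
    simp [J, Matrix.mul_apply, one_apply]
  · have h3 : (Pᵀ * J l F) *ᵥ z = 0 := by
      ext a
      rw [← mulVec_mulVec]
      rcases a with a | a
      · exact h1 a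
      · exact h2 a
    have h4 : IsUnit (Pᵀ * J l F) := by
      rw [isUnit_iff_isUnit_det, det_mul, det_transpose]
      exact (SymplecticGroup.symplectic_det hP).mul (isUnit_det_J _ _)
    exact mulVec_injective_iff_isUnit.2 h4 (by rw [h3, mulVec_zero])

end Cfsg.Agent.H30.Ore
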