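import Mathlib

/-! The arithmetic in Wong's theorem. -/

set_option autoImplicit false

namespace Cfsg.Agent.H30

theorem wong_arith1 {Q m N a : ℤ} (hQ : Prime Q) (hS : Q + 1 ≠ 0) (hm : m ≠ 0)
    (hN : IsCoprime N (Q * (Q + 1) * m))
    (h : Q * (Q + 1) ^ 3 * m ^ 2 * (a * (a + 1)) = N * (a + Q + 1) ^ 2) :
    ∃ M, (M = m ∨ M = -m) ∧ a = (Q + 1) * (M * Q * (Q + 1) - 1) ∧
      N = (M * Q * (Q + 1) - 1) * ((Q + 1) ^ 2 * M - 1) := by
  set S := Q + 1 with hSd
  have hNQ : IsCoprime Q N := (hN.of_mul_right_left.of_mul_right_left).symm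
  have hNS : IsCoprime S N := (hN.of_mul_right_left.of_mul_right_right).symm
  have hNm : IsCoprime m N := hN.of_mul_right_right.symm
  have hQS : IsCoprime Q S := ⟨-1, 1, by rw [hSd]; ring⟩
  obtain ⟨b, hb⟩ : S * m ∣ a + S := by
    rw [← Int.pow_dvd_pow_iff two_ne_zero]
    refine ((hNS.mul_left hNm).pow_left (m := 2)).dvd_of_dvd_mul_left ⟨Q * S * (a * (a + 1)), ?_⟩
    linear_combination -h
  have ha : a = S * (m * b - 1) := by linear_combination hb
  have h1 : Q * S ^ 2 * ((m * b - 1) * (a + 1)) = N * b ^ 2 := by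
    refine mul_left_cancel₀ (pow_ne_zero 2 (mul_ne_zero hS hm)) ?_
    rw [show a + Q + 1 = S * m * b by rw [← hb, hSd]; ring] at h
    rw [ha] at h ⊢
    linear_combination h
  have h2 : S ∣ b := by
    rw [← Int.pow_dvd_pow_iff two_ne_zero]
    exact (hNS.pow_left (m := 2)).dvd_of_dvd_mul_left ⟨Q * ((m * b - 1) * (a + 1)), by
      linear_combination -h1⟩
  have h3 : Q ∣ b := hQ.dvd_of_dvd_pow (n := 2) (hNQ.dvd_of_dvd_mul_left
    ⟨S ^ 2 * ((m * b - 1) * (a + 1)), by linear_combination -h1⟩)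
  obtain ⟨u, rfl⟩ := hQS.mul_dvd h3 h2
  have h4 : (m * u * Q * S - 1) * (S ^ 2 * (m * u) - 1) = N * u ^ 2 := by
    refine mul_left_cancel₀ (pow_ne_zero 2 (mul_ne_zero hS hQ.ne_zero)) ?_
    rw [ha] at h1
    have : (1 : ℤ) = S - Q := by rw [hSd]; ring
    linear_combination h1 - Q * S ^ 2 * (m * (Q * S * u) - 1) * this
  have h5 : u = 1 ∨ u = -1 := Int.isUnit_iff.1 (isUnit_of_dvd_one
    ⟨N * u - (m * Q * S * (S ^ 2 * (m * u) - 1) - S ^ 2 * m), by linear_combination h4⟩)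
  refine ⟨m * u, by rcases h5 with rfl | rfl <;> simp, by rw [ha]; ring, ?_⟩
  rw [h4]
  rcases h5 with rfl | rfl <;> simp

theorem wong_arith2 {Q M c : ℤ} (hQ : Prime Q) (hS : Q + 1 ≠ 0) (hM : M ≠ 0)
    (hA : M * Q * (Q + 1) - 1 ≠ 0) (hB : IsCoprime Q ((Q + 1) ^ 2 * M - 1))
    (h : Q * (Q + 1) ^ 2 * M ^ 2 * (c * (c - (Q + 1) * (M * Q * (Q + 1) - 1))) =
      ((Q + 1) ^ 2 * M - 1) * (c - Q * (M * Q * (Q + 1) - 1)) ^ 2)
    (hc : c - (Q + 1) * (M * Q * (Q + 1) - 1) ≠ 1) : (Q + 1) * M - 1 ∣ Q - 1 := by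
  set S := Q + 1 with hSd
  set A := M * Q * S - 1 with hAd
  set B := S ^ 2 * M - 1 with hBd
  obtain ⟨c₁, rfl⟩ : Q ∣ c := by
    have : Q ∣ c - Q * A := hQ.dvd_of_dvd_pow (n := 2) (hB.dvd_of_dvd_mul_left
      ⟨S ^ 2 * M ^ 2 * (c * (c - S * A)), by linear_combination -h⟩)
    exact (dvd_sub_left (dvd_mul_right Q A)).1 this
  have h1 : (S * M) ^ 2 * (c₁ * (Q * c₁ - S * A)) = B * (c₁ - A) ^ 2 := by
    refine mul_left_cancel₀ (pow_ne_zero 2 hQ.ne_zero) ?_
    linear_combination h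
  have hB' : IsCoprime (S * M) B := ⟨S, -1, by rw [hBd]; ring⟩
  obtain ⟨v, hv⟩ : S * M ∣ c₁ - A := by
    rw [← Int.pow_dvd_pow_iff two_ne_zero]
    exact (hB'.pow_left (m := 2)).dvd_of_dvd_mul_left ⟨_, h1.symm⟩
  obtain rfl : c₁ = A + S * M * v := by linear_combination hv
  have h2 : (A + S * M * v) * (Q * (A + S * M * v) - S * A) = B * v ^ 2 := by
    refine mul_left_cancel₀ (pow_ne_zero 2 (mul_ne_zero hS hM)) ?_
    linear_combination h1
  have h3 : (v - 1) * ((S * M - 1) * v + A) = 0 := by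
    refine mul_left_cancel₀ hA ?_
    rw [hBd, hAd, hSd] at h2
    rw [hAd, hSd]
    linear_combination h2
  rcases mul_eq_zero.1 h3 with e | e
  · refine absurd ?_ hc
    rw [sub_eq_zero.1 e, hAd, hSd]
    ring
  · exact ⟨-v - Q, by rw [hAd, hSd] at e; rw [hSd]; linear_combination e⟩

theorem wong_arith {q m N : ℕ} {Q a c : ℤ} (hq : q.Prime) (h5 : 5 ≤ q) (hQ : Q = q ∨ Q = -q)
    (hm : m ≠ 0) (hN : IsCoprime (N : ℤ) (Q * (Q + 1) * m)) (ha : a ≠ 0) (hc : c - a ≠ 1)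
    (h1 : Q * (Q + 1) ^ 3 * m ^ 2 * (a * (a + 1)) = N * (a + Q + 1) ^ 2)
    (h2 : Q * (Q + 1) ^ 3 * m ^ 2 * (a * c * (c - a)) = N * ((Q + 1) * c - Q * a) ^ 2) :
    q = 5 ∧ m = 1 ∧ N = 357 := by
  have hp : Prime Q := by
    rcases hQ with rfl | rfl
    exacts [Nat.prime_iff_prime_int.1 hq, (Nat.prime_iff_prime_int.1 hq).neg]
  have hS : Q + 1 ≠ 0 := by omega
  obtain ⟨M, hM, rfl, h3⟩ := wong_arith1 hp hS (by omega) hN h1
  have hA := right_ne_zero_of_mul ha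
  have hM2 : (m : ℤ) ^ 2 = M ^ 2 := by rcases hM with rfl | rfl <;> ring
  have h4 := wong_arith2 (c := c) hp hS (by omega) hA
    (h3 ▸ hN.of_mul_right_left.of_mul_right_left).of_mul_left_right.symm (by
      refine mul_left_cancel₀ (mul_ne_zero (pow_ne_zero 2 hS) hA) ?_
      rw [h3, hM2] at h2
      linear_combination h2) hc
  have h6 := Int.natAbs_le_of_dvd_ne_zero h4 (by omega)
  have h7 : Q = -q ∧ M = -1 := by
    rcases hQ with rfl | rfl
    · exfalso
      rcases hM with rfl | rfl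
      · have : ((q : ℤ) + 1) * 1 ≤ (q + 1) * m := by gcongr; omega
        omega
      · have : ((q : ℤ) + 1) * 1 ≤ (q + 1) * m := by gcongr; omega
        rw [mul_neg] at h6
        omega
    · refine ⟨rfl, ?_⟩
      by_cases e : m = 1
      · subst e
        rcases hM with rfl | rfl
        · have h8 : (q : ℤ) ∣ 1 := by
            rw [show (-(q : ℤ) + 1) * (1 : ℕ) - 1 = -q by push_cast; ring, neg_dvd,
              dvd_sub_right (dvd_neg.2 dvd_rfl)] at h4
            exact h4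
          have := Int.le_of_dvd one_pos h8
          omega
        · rfl
      · exfalso
        have : ((q : ℤ) - 1) * 2 ≤ (q - 1) * m := by gcongr <;> omega
        rcases hM with rfl | rfl
        · rw [show (-(q : ℤ) + 1) * m = -((q - 1) * m) by ring] at h6
          omega
        · rw [show (-(q : ℤ) + 1) * -m = (q - 1) * m by ring] at h6
          omega
  obtain ⟨rfl, rfl⟩ := h7
  have h8 : (q : ℤ) - 2 ∣ 3 := by
    rw [show (-(q : ℤ) + 1) * -1 - 1 = q - 2 by ring,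
      show -(q : ℤ) - 1 = -(q - 2) - 3 by ring, dvd_sub_right (dvd_neg.2 dvd_rfl)] at h4
    exact h4
  have h9 := Int.le_of_dvd (by norm_num) h8
  obtain rfl : q = 5 := by omega
  norm_num at h3
  omega

end Cfsg.Agent.H30
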